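import Cfsg.Agent.Lib.Helper51.Zass.Defs
import Cfsg.Agent.Lib.Helper41.DicksonShapeU
import Cfsg.Agent.Lib.Helper41.DicksonRecog

set_option autoImplicit false

/-!
# ZASS (S0690), package [DKF]: the Dickson filter

A finite group `H` with a homomorphism `φ : H → GL₂(E)` (`E` a finite field) such that
`φ g - 1` is invertible for `g ≠ 1`, generated by its elements of order `3`, is trivial, of
order `3`, a "line" (a central extension of `A₄` by a group of order `2`) or a "plane" (the
same with `A₅`).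
-/

universe u

namespace Cfsg.Agent.Lib.Helper39.Zass

open Cfsg.Agent.Lib.Helper51.Zass
open Cfsg.Agent.Lib.Helper41

section Mat

variable {E : Type*} [Field E]

/-- a `2 × 2` matrix with `M² + M + 1 = 0` that is not scalar has determinant one -/
theorem det_eq_one_of_cube {M : Matrix (Fin 2) (Fin 2) E} (h : M * M + M + 1 = 0)
    (hns : M 0 1 ≠ 0 ∨ M 1 0 ≠ 0 ∨ M 0 0 ≠ M 1 1) : M.det = 1 := by
  have h00 := congrFun (congrFun h 0) 0
  have h01 := congrFun (congrFun h 0) 1
  have h10 := congrFun (congrFun h 1) 0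
  have h11 := congrFun (congrFun h 1) 1
  simp only [Matrix.add_apply, Matrix.mul_apply, Fin.sum_univ_two, Matrix.one_apply_eq,
    Matrix.zero_apply, ne_eq, zero_ne_one, one_ne_zero, not_false_eq_true,
    Matrix.one_apply_ne, add_zero] at h00 h01 h10 h11
  have ht : M 0 0 + M 1 1 + 1 = 0 := by
    rcases hns with h1 | h1 | h1
    · have h2 : M 0 1 * (M 0 0 + M 1 1 + 1) = 0 := by linear_combination h01
      exact (mul_eq_zero.1 h2).resolve_left h1
    · have h2 : M 1 0 * (M 0 0 + M 1 1 + 1) = 0 := by linear_combination h10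
      exact (mul_eq_zero.1 h2).resolve_left h1
    · have h2 : (M 0 0 - M 1 1) * (M 0 0 + M 1 1 + 1) = 0 := by linear_combination h00 - h11
      exact (mul_eq_zero.1 h2).resolve_left (sub_ne_zero.2 h1)
  rw [Matrix.det_fin_two]
  linear_combination M 0 0 * ht - h00

/-- a scalar `2 × 2` matrix is central -/
theorem comm_of_scalar {M : Matrix (Fin 2) (Fin 2) E} (h01 : M 0 1 = 0) (h10 : M 1 0 = 0)
    (h : M 0 0 = M 1 1) (N : Matrix (Fin 2) (Fin 2) E) : M * N = N * M := by
  ext i j
  fin_cases i <;> fin_cases j <;>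
    simp [Matrix.mul_apply, Fin.sum_univ_two, h01, h10, h] <;> ring

end Mat

/-- a group generated by elements of order `3` has no quotient with a subgroup of index `2` -/
theorem no_index_two {H : Type*} [Group H] {K : Type*} [Group K]
    (hgen : ∀ N : Subgroup H, (∀ a : H, orderOf a = 3 → a ∈ N) → ∀ g : H, g ∈ N)
    (f : H →* K) (hf : Function.Surjective f) (N : Subgroup K) (hN : N.index = 2) : False := by
  have h1 : ∀ g : H, g ∈ N.comap f := by
    apply hgen
    intro a ha
    rw [Subgroup.mem_comap]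
    have h3 : (f a) ^ 3 = 1 := by rw [← map_pow, ← ha, pow_orderOf_eq_one, map_one]
    have h4 : f a = ((f a) ^ 2) ^ 2 := by
      calc f a = f a * 1 := (mul_one _).symm
        _ = f a * (f a) ^ 3 := by rw [h3]
        _ = ((f a) ^ 2) ^ 2 := by group
    rw [h4]
    exact N.pow_mem (Subgroup.sq_mem_of_index_two hN _) 2
  have h2 : N = ⊤ := by
    rw [Subgroup.eq_top_iff']
    intro x
    obtain ⟨g, rfl⟩ := hf x
    exact h1 g
  rw [h2, Subgroup.index_top] at hN
  omega

/-- the kernel of a surjection onto a group with two involutions has order `2` -/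
theorem card_ker_eq_two {H : Type*} [Group H] {K : Type*} [Group K] {R : Type*} [Ring R]
    (M : H → R) (hMinj : ∀ g h, M g = M h → g = h) (hM1 : M 1 = 1)
    (hinv : ∀ s : H, s ≠ 1 → s * s = 1 → M s = -1)
    (f : H →* K) (hf : Function.Surjective f) (hker : ∀ g, f g = 1 → M g = 1 ∨ M g = -1)
    (s t : K) (hs : s ≠ 1) (hss : s * s = 1) (ht : t ≠ 1) (htt : t * t = 1) (hst : s ≠ t) :
    Nat.card f.ker = 2 := by
  have h1 : ∃ z : H, z ≠ 1 ∧ f z = 1 := by
    by_contra hcon
    push_neg at hcon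
    have hinj : ∀ x y : H, f x = f y → x = y := by
      intro x y hxy
      have h2 : f (x * y⁻¹) = 1 := by rw [map_mul, map_inv, hxy, mul_inv_cancel]
      by_contra hne
      exact hcon (x * y⁻¹) (fun h => hne (mul_inv_eq_one.1 h)) h2
    obtain ⟨s', rfl⟩ := hf s
    obtain ⟨t', rfl⟩ := hf t
    have hs' : s' ≠ 1 := fun h => hs (by rw [h, map_one])
    have ht' : t' ≠ 1 := fun h => ht (by rw [h, map_one])
    have hss' : s' * s' = 1 := hinj _ _ (by rw [map_mul, hss, map_one])
    have htt' : t' * t' = 1 := hinj _ _ (by rw [map_mul, htt, map_one])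
    have h3 := hMinj s' t' ((hinv s' hs' hss').trans (hinv t' ht' htt').symm)
    exact hst (by rw [h3])
  obtain ⟨z, hz1, hfz⟩ := h1
  have hMz : M z = -1 := by
    rcases hker z hfz with h | h
    · exact absurd (hMinj z 1 (h.trans hM1.symm)) hz1
    · exact h
  rw [Nat.card_eq_two_iff]
  refine ⟨⟨1, f.ker.one_mem⟩, ⟨z, MonoidHom.mem_ker.2 hfz⟩, ?_, ?_⟩
  · intro h
    exact hz1 (congrArg Subtype.val h).symm
  · rw [Set.eq_univ_iff_forall]
    rintro ⟨g, hg⟩
    rcases hker g (MonoidHom.mem_ker.1 hg) with h | h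
    · left
      exact Subtype.ext (hMinj g 1 (h.trans hM1.symm))
    · right
      exact Subtype.ext (hMinj g z (h.trans hMz.symm))

/-- two involutions of `A₄` -/
theorem alt4_invol : ∃ s t : alternatingGroup (Fin 4),
    s ≠ 1 ∧ s * s = 1 ∧ t ≠ 1 ∧ t * t = 1 ∧ s ≠ t := by
  refine ⟨⟨Equiv.swap 0 1 * Equiv.swap 2 3, ?_⟩, ⟨Equiv.swap 0 2 * Equiv.swap 1 3, ?_⟩, ?_⟩
  · rw [Equiv.Perm.mem_alternatingGroup, Equiv.Perm.sign_mul,
      Equiv.Perm.sign_swap (by decide), Equiv.Perm.sign_swap (by decide)]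
    rfl
  · rw [Equiv.Perm.mem_alternatingGroup, Equiv.Perm.sign_mul,
      Equiv.Perm.sign_swap (by decide), Equiv.Perm.sign_swap (by decide)]
    rfl
  · decide

/-- two involutions of `A₅` -/
theorem alt5_invol : ∃ s t : alternatingGroup (Fin 5),
    s ≠ 1 ∧ s * s = 1 ∧ t ≠ 1 ∧ t * t = 1 ∧ s ≠ t := by
  refine ⟨⟨Equiv.swap 0 1 * Equiv.swap 2 3, ?_⟩, ⟨Equiv.swap 0 2 * Equiv.swap 1 3, ?_⟩, ?_⟩
  · rw [Equiv.Perm.mem_alternatingGroup, Equiv.Perm.sign_mul,
      Equiv.Perm.sign_swap (by decide), Equiv.Perm.sign_swap (by decide)]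
    rfl
  · rw [Equiv.Perm.mem_alternatingGroup, Equiv.Perm.sign_mul,
      Equiv.Perm.sign_swap (by decide), Equiv.Perm.sign_swap (by decide)]
    rfl
  · decide

theorem pkgDKF : PkgDKF.{u} := by
  intro p _ E _ _ _ G _ _ H φ hfpf hgen
  classical
  haveI : Fintype E := Fintype.ofFinite E
  obtain ⟨M, hM⟩ : ∃ M : H → Matrix (Fin 2) (Fin 2) E, ∀ g, M g =
      ((φ g : Matrix.GeneralLinearGroup (Fin 2) E) : Matrix (Fin 2) (Fin 2) E) :=
    ⟨_, fun _ => rfl⟩
  have hM1 : M 1 = 1 := by rw [hM, map_one]; rfl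
  have hMmul : ∀ g h, M (g * h) = M g * M h := by
    intro g h
    rw [hM, hM, hM, map_mul]
    rfl
  have hunit : ∀ g, g ≠ 1 → IsUnit (M g - 1) := by
    intro g hg
    rw [hM]
    exact hfpf g hg
  have hnz : ¬ IsUnit (0 : Matrix (Fin 2) (Fin 2) E) := not_isUnit_zero
  have hM1' : ∀ g, M g = 1 → g = 1 := by
    intro g hg
    by_contra hne
    have h1 := hunit g hne
    rw [hg, sub_self] at h1
    exact hnz h1
  have hMinj : ∀ g h, M g = M h → g = h := by
    intro g h hgh
    have h1 : M (g * h⁻¹) = 1 := by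
      rw [hMmul, hgh, ← hMmul, mul_inv_cancel, hM1]
    exact mul_inv_eq_one.1 (hM1' _ h1)
  -- involutions
  have hinv : ∀ s : H, s ≠ 1 → s * s = 1 → M s = -1 := by
    intro s hs hss
    have h1 : (M s - 1) * (M s + 1) = 0 := by
      have h2 : M s * M s = 1 := by rw [← hMmul, hss, hM1]
      calc (M s - 1) * (M s + 1) = M s * M s - 1 := by noncomm_ring
        _ = 0 := by rw [h2, sub_self]
    have h2 := (hunit s hs).mul_right_eq_zero.1 h1
    exact eq_neg_of_add_eq_zero_left h2
  -- elements of order 3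
  have hord3 : ∀ a : H, orderOf a = 3 → a ≠ 1 ∧ a * a * a = 1 := by
    intro a ha
    refine ⟨?_, ?_⟩
    · rintro rfl
      rw [orderOf_one] at ha
      omega
    · have h1 := pow_orderOf_eq_one a
      rw [ha] at h1
      calc a * a * a = a ^ 3 := by rw [pow_succ, pow_two]
        _ = 1 := h1
  have hcube : ∀ a : H, orderOf a = 3 → M a * M a + M a + 1 = 0 := by
    intro a ha
    obtain ⟨ha1, ha3⟩ := hord3 a ha
    have h1 : (M a - 1) * (M a * M a + M a + 1) = 0 := by
      have h2 : M a * M a * M a = 1 := by rw [← hMmul, ← hMmul, ha3, hM1]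
      calc (M a - 1) * (M a * M a + M a + 1) = M a * M a * M a - 1 := by noncomm_ring
        _ = 0 := by rw [h2, sub_self]
    exact (hunit a ha1).mul_right_eq_zero.1 h1
  have hsq : ∀ a : H, orderOf a = 3 → M a * M a = -1 - M a := by
    intro a ha
    rw [eq_sub_iff_add_eq, eq_neg_iff_add_eq_zero]
    exact hcube a ha
  -- generation inside `H`
  have hgenH : ∀ N : Subgroup H, (∀ a : H, orderOf a = 3 → a ∈ N) → ∀ g : H, g ∈ N := by
    intro N hN g
    have h1 : Subgroup.closure {g : G | g ∈ H ∧ orderOf g = 3} ≤ N.map H.subtype := by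
      rw [Subgroup.closure_le]
      rintro x ⟨hxH, hx3⟩
      refine ⟨⟨x, hxH⟩, hN _ ?_, rfl⟩
      rw [← hx3]
      exact Subgroup.orderOf_mk x hxH
    rw [hgen] at h1
    obtain ⟨y, hy, hyg⟩ := h1 g.2
    have h2 : y = g := Subtype.ext hyg
    rw [← h2]
    exact hy
  -- commuting elements of order 3
  have hcomm3 : ∀ a b : H, orderOf a = 3 → orderOf b = 3 → a * b = b * a →
      b = a ∨ b = a⁻¹ := by
    intro a b ha hb hab
    by_cases h1 : a * b⁻¹ = 1
    · left
      exact (mul_inv_eq_one.1 h1).symm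
    · right
      have hA := hcube a ha
      have hBB := hsq b hb
      have hAB : M a * M b = M b * M a := by rw [← hMmul, ← hMmul, hab]
      obtain ⟨-, hb3⟩ := hord3 b hb
      have hbinv : M b⁻¹ = M b * M b := by
        have h2 : b⁻¹ = b * b := inv_eq_of_mul_eq_one_left hb3
        rw [h2, hMmul]
      have h2 : (M (a * b⁻¹) - 1) * (M (a * b) - 1) = 0 := by
        rw [hMmul, hMmul, hbinv, hBB]
        calc (M a * (-1 - M b) - 1) * (M a * M b - 1)
            = -(M a * M a * M b) + M a - M a * (M b * M a) * M b + 1 := by noncomm_ring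
          _ = -(M a * M a * M b) + M a - M a * M a * (M b * M b) + 1 := by
              rw [← hAB]; noncomm_ring
          _ = M a * M a + M a + 1 := by rw [hBB]; noncomm_ring
          _ = 0 := hA
      have h3 := (hunit _ h1).mul_right_eq_zero.1 h2
      have h4 : a * b = 1 := hM1' _ (sub_eq_zero.1 h3)
      exact eq_inv_of_mul_eq_one_right h4
  have hcard3 : ∀ a : H, orderOf a = 3 → (∀ b : H, orderOf b = 3 → a * b = b * a) →
      Nat.card H = 3 := by
    intro a ha hall
    have h1 : ∀ g : H, g ∈ Subgroup.zpowers a := by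
      apply hgenH
      intro b hb
      rcases hcomm3 a b ha hb (hall b hb) with rfl | rfl
      · exact Subgroup.mem_zpowers _
      · exact Subgroup.inv_mem _ (Subgroup.mem_zpowers _)
    have h2 : Subgroup.zpowers a = ⊤ := (Subgroup.eq_top_iff' _).2 h1
    have h3 : Nat.card (Subgroup.zpowers a) = 3 := by rw [Nat.card_zpowers, ha]
    rw [h2, Subgroup.card_top] at h3
    exact h3
  -- case 1: no element of order 3
  by_cases hX : ∃ a : H, orderOf a = 3
  swap
  · left
    have h1 : ∀ g : H, g ∈ (⊥ : Subgroup H) := hgenH ⊥ (fun a ha => absurd ⟨a, ha⟩ hX)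
    rw [Nat.card_eq_one_iff_unique]
    exact ⟨⟨fun x y => by rw [Subgroup.mem_bot.1 (h1 x), Subgroup.mem_bot.1 (h1 y)]⟩, ⟨1⟩⟩
  obtain ⟨a₀, ha₀⟩ := hX
  -- case 2: some element of order 3 is scalar
  by_cases hsc : ∃ a : H, orderOf a = 3 ∧ M a 0 1 = 0 ∧ M a 1 0 = 0 ∧ M a 0 0 = M a 1 1
  · obtain ⟨a, ha, h01, h10, h00⟩ := hsc
    right; left
    apply hcard3 a ha
    intro b hb
    apply hMinj
    rw [hMmul, hMmul]
    exact comm_of_scalar h01 h10 h00 (M b)
  -- case 3: all elements of order 3 have determinant one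
  have hdet3 : ∀ a : H, orderOf a = 3 → (M a).det = 1 := by
    intro a ha
    apply det_eq_one_of_cube (hcube a ha)
    by_contra hcon
    push_neg at hcon
    exact hsc ⟨a, ha, hcon.1, hcon.2.1, hcon.2.2⟩
  have hdet : ∀ g : H, (M g).det = 1 := by
    intro g
    have h1 := hgenH ((Matrix.detMonoidHom.comp ((Units.coeHom _).comp φ)).ker) (fun a ha => by
      rw [MonoidHom.mem_ker]
      have h2 := hdet3 a ha
      rw [hM] at h2
      exact h2) g
    rw [MonoidHom.mem_ker] at h1
    rw [hM]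
    exact h1
  obtain ⟨ψ, hψ⟩ : ∃ ψ : H →* Matrix.SpecialLinearGroup (Fin 2) E, ∀ g, (ψ g).1 = M g :=
    ⟨{ toFun := fun g => ⟨M g, hdet g⟩
       map_one' := Subtype.ext hM1
       map_mul' := fun g h => Subtype.ext (hMmul g h) }, fun g => rfl⟩
  obtain ⟨f₀, hf₀⟩ : ∃ f₀ : H →* Matrix.ProjectiveSpecialLinearGroup (Fin 2) E,
      ∀ g, f₀ g = QuotientGroup.mk (ψ g) :=
    ⟨(QuotientGroup.mk' (Subgroup.center (Matrix.SpecialLinearGroup (Fin 2) E))).comp ψ,
      fun g => rfl⟩
  have hker : ∀ g : H, f₀ g = 1 ↔ M g = 1 ∨ M g = -1 := by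
    intro g
    rw [hf₀, QuotientGroup.eq_one_iff, sl2_mem_center_iff, hψ]
  have hnk : ∀ a : H, orderOf a = 3 → f₀ a ≠ 1 := by
    intro a ha h1
    rw [hker] at h1
    apply hsc
    refine ⟨a, ha, ?_, ?_, ?_⟩ <;> rcases h1 with h1 | h1 <;> rw [h1] <;> simp
  -- no unipotent elements
  have hnoU : ∀ g : H, ¬ IsUni (f₀ g) := by
    intro g hU
    rw [hf₀, isUni_mk, sl2_mem_center_iff] at hU
    simp only [hψ] at hU
    obtain ⟨hnc, htr⟩ := hU
    have hc := cayley2_det_one (hdet g)
    have h1 : ((M g).trace - 2) * ((M g).trace + 2) = 0 := by linear_combination htr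
    rcases mul_eq_zero.1 h1 with h2 | h2
    · have h3 : (M g).trace = 2 := by linear_combination h2
      rw [h3] at hc
      have h4 : (M g - 1) * (M g - 1) = 0 := by
        calc (M g - 1) * (M g - 1) = M g * M g - M g - M g + 1 := by noncomm_ring
          _ = 0 := by rw [hc, two_smul]; abel
      have h5 : M g = 1 := by
        by_cases hg : g = 1
        · rw [hg, hM1]
        · exact sub_eq_zero.1 ((hunit g hg).mul_right_eq_zero.1 h4)
      exact hnc (Or.inl h5)
    · have h3 : (M g).trace = -2 := by linear_combination h2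
      rw [h3] at hc
      have h4 : (M g + 1) * (M g + 1) = 0 := by
        calc (M g + 1) * (M g + 1) = M g * M g + M g + M g + 1 := by noncomm_ring
          _ = 0 := by rw [hc, neg_smul, two_smul]; abel
      have e1 : M (g * g) - 1 = (-2 : E) • (M g + 1) := by
        rw [hMmul, hc, neg_smul, two_smul, neg_smul, two_smul]
        abel
      have h5 : (M (g * g) - 1) * (M (g * g) - 1) = 0 := by
        rw [e1, smul_mul_smul_comm, h4, smul_zero]
      have h6 : g * g = 1 := by
        by_contra hgg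
        have h7 := (hunit _ hgg).mul_right_eq_zero.1 h5
        exact hgg (hM1' _ (sub_eq_zero.1 h7))
      by_cases hg : g = 1
      · exact hnc (Or.inl (by rw [hg, hM1]))
      · exact hnc (Or.inr (hinv g hg h6))
  -- the image in `PSL₂(E)`
  obtain ⟨Hb, hHb⟩ : ∃ Hb : Subgroup (Matrix.ProjectiveSpecialLinearGroup (Fin 2) E),
      Hb = f₀.range := ⟨_, rfl⟩
  obtain ⟨fr, hfr, hfrs⟩ : ∃ fr : H →* Hb,
      (∀ g, (fr g : Matrix.ProjectiveSpecialLinearGroup (Fin 2) E) = f₀ g) ∧
        Function.Surjective fr := by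
    subst hHb
    exact ⟨f₀.rangeRestrict, fun g => rfl, f₀.rangeRestrict_surjective⟩
  haveI : Fintype Hb := Fintype.ofFinite Hb
  have hfr1 : ∀ g, fr g = 1 ↔ M g = 1 ∨ M g = -1 := by
    intro g
    rw [← hker, ← hfr]
    constructor
    · intro h
      rw [h]
      rfl
    · intro h
      exact Subtype.ext h
  have hnoU' : ∀ x : Hb, ¬ (dpartOf p Hb).isU x := by
    intro x hU
    obtain ⟨g, rfl⟩ := hfrs x
    have h1 : IsUni ((fr g : Hb) : Matrix.ProjectiveSpecialLinearGroup (Fin 2) E) := hU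
    rw [hfr] at h1
    exact hnoU g h1
  have hfrker : ∀ g, fr g = 1 → M g = 1 ∨ M g = -1 := fun g h => (hfr1 g).1 h
  have hshape := (dpartOf p Hb).shape
  unfold DPart.Shape at hshape
  rcases hshape with h | ⟨a, ha, haU, h⟩ | ⟨a, ha, haU, h⟩ | ⟨a, ha, haU, h⟩ | ⟨hc, h⟩ | ⟨hc, h⟩ |
    ⟨hc, h⟩ | ⟨a, b, e, ha, haU, hb, hbU, hle, hcardN, hlt, he, hH, hk⟩
  · -- trivial image: impossible
    exfalso
    haveI : Subsingleton Hb := Fintype.card_le_one_iff_subsingleton.mp (le_of_eq h)
    apply hnk a₀ ha₀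
    rw [← hfr, Subsingleton.elim (fr a₀) 1]
    rfl
  · -- cyclic image: `H` has order 3
    right; left
    have hle : Hb ≤ torusOf (a : Matrix.ProjectiveSpecialLinearGroup (Fin 2) E) := by
      have h' : hTorus Hb a = ⊤ := h
      unfold hTorus at h'
      exact Subgroup.subgroupOf_eq_top.mp h'
    have hcyc := (recog_cyclic p Hb (coe_ne_one ha) haU hle).1
    have hcomm : ∀ x y : Hb, x * y = y * x := fun x y =>
      (IsCyclic.commGroup (α := Hb)).mul_comm x y
    apply hcard3 a₀ ha₀
    intro b hb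
    have h1 : fr (a₀ * b * (b * a₀)⁻¹) = 1 := by
      rw [map_mul, map_inv, map_mul, map_mul, hcomm (fr a₀) (fr b), mul_inv_cancel]
    have h2 : a₀ * b = (a₀ * b * (b * a₀)⁻¹) * (b * a₀) := by group
    rcases hfrker _ h1 with h3 | h3
    · rw [h2, hM1' _ h3, one_mul]
    · apply hMinj
      have h4 : M a₀ * M b = -(M b * M a₀) := by
        have h5 := congrArg M h2
        rw [hMmul _ (b * a₀), h3, hMmul, hMmul] at h5
        rw [h5]
        noncomm_ring
      have hAA := hsq a₀ ha₀
      have e1 : M a₀ * M a₀ * M b = M b * (M a₀ * M a₀) := by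
        calc M a₀ * M a₀ * M b = M a₀ * (M a₀ * M b) := by rw [mul_assoc]
          _ = M a₀ * (-(M b * M a₀)) := by rw [h4]
          _ = -(M a₀ * M b) * M a₀ := by noncomm_ring
          _ = -(-(M b * M a₀)) * M a₀ := by rw [h4]
          _ = M b * (M a₀ * M a₀) := by noncomm_ring
      rw [hAA] at e1
      have e2 : (-1 - M a₀) * M b = -M b - M a₀ * M b := by noncomm_ring
      have e3 : M b * (-1 - M a₀) = -M b - M b * M a₀ := by noncomm_ring
      rw [e2, e3] at e1
      rw [hMmul, hMmul]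
      exact sub_right_injective e1
  · -- dihedral image: impossible
    exfalso
    have h1 : Nat.card (hTorus Hb a) * (hTorus Hb a).index = Nat.card Hb :=
      Subgroup.card_mul_index _
    have h2 : 2 * Nat.card (hTorus Hb a) = Nat.card Hb := by
      rw [Nat.card_eq_fintype_card (α := Hb)]
      exact h
    have h3 : 0 < Nat.card (hTorus Hb a) := Nat.card_pos
    have h4 : (hTorus Hb a).index = 2 := by
      have h5 : Nat.card (hTorus Hb a) * (hTorus Hb a).index = Nat.card (hTorus Hb a) * 2 := by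
        rw [h1, ← h2, mul_comm]
      exact Nat.eq_of_mul_eq_mul_left h3 h5
    exact no_index_two hgenH fr hfrs _ h4
  · exact (hnoU' a haU).elim
  · -- `A₄`
    right; right; left
    obtain ⟨e⟩ := recog_A4 Hb (by rw [Nat.card_eq_fintype_card]; exact hc) h
    obtain ⟨s, t, hs, hss, ht, htt, hst⟩ := alt4_invol
    refine ⟨e.toMonoidHom.comp fr, e.surjective.comp hfrs, ?_⟩
    apply card_ker_eq_two M hMinj hM1 hinv (e.toMonoidHom.comp fr) (e.surjective.comp hfrs) ?_
      s t hs hss ht htt hst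
    intro g hg
    apply hfrker
    apply e.injective
    rw [map_one]
    exact hg
  · -- `S₄`: impossible
    exfalso
    obtain ⟨e⟩ := recog_S4 Hb (by rw [Nat.card_eq_fintype_card]; exact hc) h
    exact no_index_two hgenH (e.toMonoidHom.comp fr) (e.surjective.comp hfrs)
      (alternatingGroup (Fin 4)) alternatingGroup.index_eq_two
  · -- `A₅`
    right; right; right
    haveI := h
    obtain ⟨e⟩ := Cfsg.Agent.S0494.result (G := Hb) (by rw [Nat.card_eq_fintype_card]; exact hc)
    obtain ⟨s, t, hs, hss, ht, htt, hst⟩ := alt5_invol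
    refine ⟨e.toMonoidHom.comp fr, e.surjective.comp hfrs, ?_⟩
    apply card_ker_eq_two M hMinj hM1 hinv (e.toMonoidHom.comp fr) (e.surjective.comp hfrs) ?_
      s t hs hss ht htt hst
    intro g hg
    apply hfrker
    apply e.injective
    rw [map_one]
    exact hg
  · exact (hnoU' a haU).elim

end Cfsg.Agent.Lib.Helper39.Zass
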